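import Cfsg.Agent.Lib.FusionLifting.Components
import Cfsg.Agent.S5098

/-!
Normalizer systems of constrained systems are constrained.
-/

set_option autoImplicit false
set_option linter.style.haveILetI false
set_option linter.unusedSectionVars false

namespace CfsgLib.FusionDichotomy

open Cfsg Cfsg.FusionSystem CfsgLib.Alperin CfsgLib.FusionSub CfsgLib.FusionBasics

universe u

variable {Ω : Type u} [Group Ω] {p : ℕ} [Fact p.Prime]

/-- A coprime automorphism of a `p`-group fixing `X` and the centralizer of `X` in an invariant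
normal subgroup `R` fixes `R`. -/
theorem fixed_of_fixed_centralizer {Y : Type*} [Group Y] [Finite Y] (hY : IsPGroup p Y)
    (Φ : MulAut Y) {m : ℕ} (hm : Φ ^ m = 1) (hcop : m.Coprime p) (R : Subgroup Y) [hR : R.Normal]
    (hΦR : ∀ r ∈ R, Φ r ∈ R) (X : Set Y) (hX : ∀ x ∈ X, Φ x = x)
    (hfix : ∀ r ∈ R, (∀ x ∈ X, x * r = r * x) → Φ r = r) : ∀ r ∈ R, Φ r = r := by
  haveI : Group.IsNilpotent Y := hY.isNilpotent
  obtain ⟨n, hn⟩ := Group.IsNilpotent.nilpotent (G := Y)
  suffices h : ∀ i, ∀ r ∈ R, r ∈ Subgroup.upperCentralSeries Y i → Φ r = r from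
    fun r hr => h n r hr (hn ▸ Subgroup.mem_top r)
  intro i
  induction i with
  | zero =>
    intro r _ h
    rw [Subgroup.upperCentralSeries_zero, Subgroup.mem_bot] at h
    rw [h, map_one]
  | succ i ih =>
    intro r hr h
    rw [Subgroup.mem_upperCentralSeries_succ_iff] at h
    refine CfsgLib.FusionExamples.eq_of_stable hY Φ hm hcop (hfix _
      (mul_mem (inv_mem hr) (hΦR r hr)) fun x hx => ?_)
    set e := r * x * r⁻¹ * x⁻¹ with he
    have heR : e ∈ R := by
      rw [he, show r * x * r⁻¹ * x⁻¹ = r * (x * r⁻¹ * x⁻¹) by group]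
      exact mul_mem hr (hR.conj_mem _ (inv_mem hr) x)
    have he' : Φ e = e := ih e heR (h x)
    have h1 : Φ r * x * (Φ r)⁻¹ * x⁻¹ = e := by
      have := he'
      rw [he, map_mul, map_mul, map_mul, map_inv, map_inv, hX x hx, ← he] at this
      exact this
    calc x * (r⁻¹ * Φ r) = r⁻¹ * (r * x * r⁻¹ * x⁻¹) * x * Φ r := by group
      _ = r⁻¹ * Φ r * x := by rw [← he, ← h1]; group

/-- A system is constrained when the centralizer system of a normal subgroup is. -/
theorem isConstrained_of_centralizer {S Q : Subgroup Ω} [Finite S] (hS : IsPGroup p S)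
    {F : FusionSystem S} (hF : F.IsSaturated p) (hQ : F.IsNormal Q)
    {C : FusionSystem (centralizerIn S Q)} (hC : F.IsCentralizerSystem Q C)
    (hc : C.IsConstrained p) : F.IsConstrained p := by
  have hCn := CoreCentralizer.centralizer_isNormalIn hS hF hQ hC
  haveI := finite_of_le (centralizerIn_le S Q)
  obtain ⟨-, R, hR, hRc⟩ := hc
  have hcore := CfsgLib.FusionExamples.isNormal_core F
  have hRQ : R ≤ F.core := (CfsgLib.FusionExamples.isNormal_le_core hR).trans
    (CfsgLib.FusionExamples.isNormal_le_core (core_isNormal hS hF hCn))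
  have hQQ : Q ≤ F.core := CfsgLib.FusionExamples.isNormal_le_core hQ
  refine ⟨hF, F.core, hcore, hcore.1, fun Q₁ hQ₁ y hy => ?_⟩
  rw [CfsgLib.FusionExamples.eq_of_isConj_of_isNormal hcore hQ₁] at hy ⊢
  exact hRQ (hRc.2 R (isConj_refl C hR.1)
    ⟨⟨hy.1, fun q hq => hy.2 q (hQQ hq)⟩, fun r hr => hy.2 r (hRQ hr)⟩)

/-- A restriction of a map fixing `X` setwise is a map of the normalizer system. -/
theorem mem_normalizer_of_map {S X Y P : Subgroup Ω} [Finite S] {F : FusionSystem S}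
    {ψ : Y →* Ω} (hψ : ψ ∈ F.Hom Y) (hXY : X ≤ Y) (hψX : (X.subgroupOf Y).map ψ = X)
    (hPY : P ≤ Y) (hPT : P ≤ normalizerIn S X) :
    ψ.comp (Subgroup.inclusion hPY) ∈ F.normalizerHom X P := by
  haveI := finite_of_le ((dom_le hψ).trans' hXY)
  refine ⟨restrict_mem hψ hPY, hPT, fun x => ⟨apply_mem hψ _, ?_⟩,
    ψ.comp (Subgroup.inclusion (sup_le hPY hXY)), restrict_mem hψ _, fun x => rfl, ?_⟩
  · refine Subgroup.mem_normalizer_iff.mpr fun z => ⟨?_, ?_⟩
    · intro hz
      obtain ⟨w, hw, rfl⟩ := hψX.ge hz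
      refine hψX.le ⟨Subgroup.inclusion hPY x * w * (Subgroup.inclusion hPY x)⁻¹,
        (Subgroup.mem_normalizer_iff.mp (hPT x.2).2 _).mp hw, ?_⟩
      rw [map_mul, map_mul, map_inv]
      rfl
    · intro hz
      obtain ⟨w, hw, hwz⟩ := hψX.ge hz
      refine hψX.le ⟨(Subgroup.inclusion hPY x)⁻¹ * w * Subgroup.inclusion hPY x,
        ?_, ?_⟩
      · refine (Subgroup.mem_normalizer_iff.mp (hPT x.2).2 _).mpr ?_
        show (x : Ω) * ((x : Ω)⁻¹ * w * x) * (x : Ω)⁻¹ ∈ X
        simpa [mul_assoc, Subgroup.mem_subgroupOf] using hw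
      · rw [map_mul, map_mul, map_inv, hwz]
        show (ψ (Subgroup.inclusion hPY x))⁻¹ * _ * ψ (Subgroup.inclusion hPY x) = z
        simp [mul_assoc]
  · ext z
    constructor
    · rintro ⟨w, hw, rfl⟩
      exact hψX.le ⟨Subgroup.inclusion (sup_le hPY hXY) w, hw, rfl⟩
    · intro hz
      obtain ⟨w, hw, rfl⟩ := hψX.ge hz
      exact ⟨⟨w, Subgroup.mem_sup_right hw⟩, hw, congrArg ψ (Subtype.ext rfl)⟩

/-- Automorphisms of a normalizer system of a constrained system fixing the core have `p`-power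
order; stated as: its centralizer system is inner. -/
theorem normalizer_constrained {S X : Subgroup Ω} [Finite S] (hS : IsPGroup p S)
    {F : FusionSystem S} (hc : F.IsConstrained p) (hX : F.IsFullyNormalized X)
    {N : FusionSystem (normalizerIn S X)} (hN : F.IsNormalizerSystem X N) :
    N.IsConstrained p := by
  obtain ⟨hF, R, hR, hRc⟩ := hc
  have hNs := Cfsg.Agent.S5098.result p hS F hF X hX N hN
  have hTS := normalizerIn_le S X
  haveI := finite_of_le hTS
  have hTp := isPGroup_of_le hS hTS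
  have hXT : X ≤ normalizerIn S X := le_inf hX.1 Subgroup.le_normalizer
  have hRsc := isNormal_stronglyClosed hR
  -- `X` is normal in `N`
  have hXn : N.IsNormal X := by
    refine ⟨hXT, fun P φ hφ => ?_⟩
    rw [hN P] at hφ
    obtain ⟨-, hPT, -, ψ, hψ, hψx, hψX⟩ := hφ
    refine ⟨ψ, ?_, hψx, hψX⟩
    rw [hN]
    exact mem_normalizer_of_map hψ le_sup_right hψX le_rfl (sup_le hPT hXT)
  -- `N_R(X)` is normal in `N`
  have hRn : N.IsNormal (normalizerIn R X) := by
    have hRT : normalizerIn R X ≤ normalizerIn S X := inf_le_inf_right _ hR.1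
    refine ⟨hRT, fun P φ hφ => ?_⟩
    rw [hN P] at hφ
    obtain ⟨-, hPT, -, ψ, hψ, hψx, hψX⟩ := hφ
    obtain ⟨ψ₂, hψ₂, hψ₂x, hψ₂R⟩ := hR.2 _ ψ hψ
    have hXY : X ≤ P ⊔ X ⊔ R := le_sup_right.trans le_sup_left
    have hψ₂X : (X.subgroupOf (P ⊔ X ⊔ R)).map ψ₂ = X := by
      ext z
      constructor
      · rintro ⟨w, hw, rfl⟩
        exact hψX.le ⟨⟨w, Subgroup.mem_sup_right hw⟩, hw,
          ((congrArg ψ₂ (Subtype.ext rfl)).trans
            (hψ₂x ⟨w, Subgroup.mem_sup_right hw⟩)).symm⟩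
      · intro hz
        obtain ⟨w, hw, rfl⟩ := hψX.ge hz
        exact ⟨Subgroup.inclusion le_sup_left w, hw, hψ₂x w⟩
    have hle : P ⊔ normalizerIn R X ≤ P ⊔ X ⊔ R := sup_le (le_sup_left.trans le_sup_left)
      (inf_le_left.trans le_sup_right)
    have hmem := mem_normalizer_of_map hψ₂ hXY hψ₂X hle (sup_le hPT hRT)
    refine ⟨_, by rw [hN]; exact hmem, fun x => ?_, ?_⟩
    · exact ((congrArg ψ₂ (Subtype.ext rfl)).trans
        (hψ₂x (Subgroup.inclusion le_sup_left x))).trans (hψx x)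
    · haveI := finite_of_le (hRT.trans hTS)
      have hinj : Function.Injective (ψ₂.comp (Subgroup.inclusion hle)) :=
        F.injective_of_mem hmem.1
      refine Subgroup.eq_of_le_of_card_ge ?_ (le_of_eq ?_)
      · rintro _ ⟨w, hw, rfl⟩
        exact ⟨hψ₂R.le ⟨Subgroup.inclusion hle w, (hw : (w : Ω) ∈ normalizerIn R X).1, rfl⟩,
          (hmem.2.2.1 w).2⟩
      · rw [Subgroup.card_map_of_injective hinj]
        exact (Nat.card_congr (Subgroup.subgroupOfEquivOfLe le_sup_right).toEquiv).symm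
  have hWn := CfsgLib.FusionExamples.isNormal_core N
  have hXW : X ≤ N.core := CfsgLib.FusionExamples.isNormal_le_core hXn
  have hRW : normalizerIn R X ≤ N.core := CfsgLib.FusionExamples.isNormal_le_core hRn
  obtain ⟨D, hD⟩ := exists_centralizerSystem N hWn.1
  refine isConstrained_of_centralizer hTp hNs hWn hD ?_
  have hDs := CoreCentralizer.isSaturated_centralizer hTp hNs hWn hD
  have hCT : centralizerIn (normalizerIn S X) N.core ≤ normalizerIn S X := centralizerIn_le _ _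
  have hCS : centralizerIn (normalizerIn S X) N.core ≤ S := hCT.trans hTS
  haveI := finite_of_le hCS
  have hCp := isPGroup_of_le hS hCS
  have hbot : D.hyperfocalSubgroup p = ⊥ := by
    refine (Subgroup.closure_eq_bot_iff).mpr ?_
    rintro y ⟨P, α, x, hP, hα, rfl⟩
    haveI := finite_of_le hP
    haveI := finite_autGroup D hP
    suffices h : ∀ β : D.autGroup P, (orderOf β).Coprime p → β = 1 by
      have hle : pResidual p (D.autGroup P) ≤ ⊥ := (Subgroup.closure_le _).mpr fun β hβ =>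
        Subgroup.mem_bot.mpr (h β hβ)
      rw [Subgroup.mem_bot.mp (hle hα)]
      simp
    intro β hord
    have hβ := (mem_autGroup_iff D hP).mp β.2
    rw [hD P] at hβ
    obtain ⟨-, -, -, ψ, hψN, hψx, hψW⟩ := hβ
    have hψ : ψ ∈ F.Hom (P ⊔ N.core) := by rw [hN] at hψN; exact hψN.1
    obtain ⟨ψ₂, hψ₂, hψ₂x, hψ₂R⟩ := hR.2 _ ψ hψ
    have hYS : P ⊔ N.core ⊔ R ≤ S := sup_le (sup_le (hP.trans hCS) (hWn.1.trans hTS)) hR.1
    haveI := finite_of_le hYS
    have hPY : P ≤ P ⊔ N.core ⊔ R := le_sup_left.trans le_sup_left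
    have hWY : N.core ≤ P ⊔ N.core ⊔ R := le_sup_right.trans le_sup_left
    have hRY : R ≤ P ⊔ N.core ⊔ R := le_sup_right
    have hP' : ∀ x : P, ψ₂ (Subgroup.inclusion hPY x) = (((β : MulAut P) x : P) : Ω) := fun x =>
      ((congrArg ψ₂ (Subtype.ext rfl)).trans
        (hψ₂x (Subgroup.inclusion le_sup_left x))).trans (hψx x)
    have hW' : ∀ w : N.core, ψ₂ (Subgroup.inclusion hWY w) = w := fun w =>
      ((congrArg ψ₂ (Subtype.ext rfl)).trans
        (hψ₂x (Subgroup.inclusion le_sup_right w))).trans (hψW w)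
    have hR' : ∀ r : R, ψ₂ (Subgroup.inclusion hRY r) ∈ R := fun r => hψ₂R.le ⟨_, r.2, rfl⟩
    obtain ⟨Ψ, -, hΨx⟩ := exists_aut_of_hom' F hψ₂ (apply_mem_of_sup ψ₂
      (apply_mem_of_sup (ψ₂.comp (Subgroup.inclusion le_sup_left))
        (fun x => hPY (by
          show ψ₂ (Subgroup.inclusion hPY x) ∈ P
          rw [hP']
          exact ((β : MulAut P) x).2))
        fun w => hWY (by
          show ψ₂ (Subgroup.inclusion hWY w) ∈ N.core
          rw [hW']
          exact w.2))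
      fun r => hRY (hR' r))
    haveI : Finite (MulAut ↥(P ⊔ N.core ⊔ R)) := Finite.of_injective
      (fun a : MulAut ↥(P ⊔ N.core ⊔ R) => (a : ↥(P ⊔ N.core ⊔ R) → ↥(P ⊔ N.core ⊔ R)))
      (fun a b h => MulEquiv.ext (congrFun h))
    set n := orderOf Ψ with hn
    set k := p ^ n.factorization p with hk
    set m := n / k with hm
    have hkm : k * m = n := Nat.ordProj_mul_ordCompl_eq_self n p
    have hmcop : m.Coprime p :=
      (Nat.coprime_ordCompl (Fact.out : p.Prime) (orderOf_pos Ψ).ne').symm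
    set Φ := Ψ ^ k with hΦ
    have hΦm : Φ ^ m = 1 := by rw [hΦ, ← pow_mul, hkm, hn, pow_orderOf_eq_one]
    have hpP : ∀ (j : ℕ) (x : P), (Ψ ^ j) (Subgroup.inclusion hPY x) =
        Subgroup.inclusion hPY (((β : MulAut P) ^ j) x) := by
      intro j
      induction j with
      | zero => intro x; simp
      | succ j ih =>
        intro x
        rw [pow_succ', MulAut.mul_apply, ih, pow_succ', MulAut.mul_apply]
        exact Subtype.ext ((hΨx _).trans (hP' _))
    have hpW : ∀ (j : ℕ) (w : ↥(P ⊔ N.core ⊔ R)), (w : Ω) ∈ N.core → (Ψ ^ j) w = w := by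
      intro j
      induction j with
      | zero => intro w _; simp
      | succ j ih =>
        intro w hw
        rw [pow_succ', MulAut.mul_apply, ih w hw]
        exact Subtype.ext ((hΨx _).trans ((congrArg ψ₂ (Subtype.ext rfl)).trans (hW' ⟨w, hw⟩)))
    have hpR : ∀ (j : ℕ) (w : ↥(P ⊔ N.core ⊔ R)), (w : Ω) ∈ R →
        (((Ψ ^ j) w : ↥(P ⊔ N.core ⊔ R)) : Ω) ∈ R := by
      intro j
      induction j with
      | zero => intro w hw; simpa using hw
      | succ j ih =>
        intro w hw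
        rw [pow_succ', MulAut.mul_apply, hΨx]
        exact hR' ⟨_, ih w hw⟩
    have hYp := isPGroup_of_le hS hYS
    haveI : (R.subgroupOf (P ⊔ N.core ⊔ R)).Normal :=
      ⟨fun r hr g => stronglyClosed_conj hRsc (hYS g.2) hr⟩
    have hfixR := fixed_of_fixed_centralizer hYp Φ hΦm hmcop (R.subgroupOf (P ⊔ N.core ⊔ R))
      (fun r hr => hpR k r hr) {y : ↥(P ⊔ N.core ⊔ R) | (y : Ω) ∈ X}
      (fun x hx => hpW k x (hXW hx))
      fun r hr hrX => hpW k r (hRW ⟨hr, CfsgLib.FusionBasics.centralizer_le_normalizer X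
        fun x hx => congrArg Subtype.val (hrX ⟨x, hXW.trans hWY hx⟩ hx)⟩)
    have hall : ∀ y : ↥(P ⊔ N.core ⊔ R), Φ y = y := fun y => by
      refine CfsgLib.FusionExamples.eq_of_stable hYp Φ hΦm hmcop (hfixR _ ?_)
      refine hRc.2 R (isConj_refl F hR.1) ⟨hYS (y⁻¹ * Φ y).2, fun r hr => ?_⟩
      set r' : ↥(P ⊔ N.core ⊔ R) := ⟨r, hRY hr⟩
      have h1 := hfixR (y * r' * y⁻¹) (stronglyClosed_conj hRsc (hYS y.2) hr)
      rw [map_mul, map_mul, map_inv, hfixR r' hr] at h1
      refine congrArg Subtype.val (?_ : r' * (y⁻¹ * Φ y) = y⁻¹ * Φ y * r')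
      calc r' * (y⁻¹ * Φ y) = y⁻¹ * (y * r' * y⁻¹) * Φ y := by group
        _ = y⁻¹ * Φ y * r' := by rw [← h1]; group
    have hβk : (β : MulAut P) ^ k = 1 := MulEquiv.ext fun x => by
      have h1 := hall (Subgroup.inclusion hPY x)
      rw [hΦ, hpP] at h1
      exact Subgroup.inclusion_injective hPY h1
    refine orderOf_eq_one_iff.mp (Nat.dvd_one.mp ((hord.pow_right (n.factorization p)) ▸
      Nat.dvd_gcd dvd_rfl ?_))
    exact orderOf_dvd_of_pow_eq_one (Subtype.ext hβk)
  have hinner := CfsgLib.FusionBasics.PPower.hom_eq_inner_of_hyperfocal_eq_bot hCp hDs hbot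
  refine ⟨hDs, _, ⟨le_rfl, fun P φ hφ => ?_⟩, isCentric_top D⟩
  rw [hinner P] at hφ
  obtain ⟨hP, g, hg, hgx⟩ := hφ
  refine ⟨conjHom _ g, D.conj_mem (sup_le hP le_rfl) hg, fun x => (hgx x).symm, ?_⟩
  refine le_antisymm ?_ fun z hz => ⟨⟨g⁻¹ * z * g, Subgroup.mem_sup_right
    (mul_mem (mul_mem (inv_mem hg) hz) hg)⟩, mul_mem (mul_mem (inv_mem hg) hz) hg, ?_⟩
  · rintro _ ⟨w, hw, rfl⟩
    exact mul_mem (mul_mem hg hw) (inv_mem hg)
  · show g * (g⁻¹ * z * g) * g⁻¹ = z
    group

end CfsgLib.FusionDichotomy
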