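import Cfsg.Agent.Lib.FusionDichotomy.Constrained
import Cfsg.Agent.S5099
import Cfsg.Agent.Lib.PSolvable.FrattiniFacts
import Cfsg.Agent.Lib.FusionBasics.Transport

/-!
Characteristic `p`-type or component type.
-/

set_option autoImplicit false
set_option linter.style.haveILetI false
set_option linter.unusedSectionVars false

namespace CfsgLib.FusionDichotomy

open Cfsg Cfsg.FusionSystem CfsgLib.Alperin CfsgLib.FusionSub CfsgLib.FusionBasics

universe u

variable {Ω : Type u} [Group Ω] {p : ℕ} [Fact p.Prime]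

theorem isConstrained_congr {S₁ S₂ : Subgroup Ω} (h : S₁ = S₂) {E₁ : FusionSystem S₁}
    {E₂ : FusionSystem S₂} (hE : ∀ P, E₁.Hom P = E₂.Hom P) (hc : E₁.IsConstrained p) :
    E₂.IsConstrained p := by
  subst h
  have : E₁ = E₂ := by
    cases E₁
    cases E₂
    congr
    exact funext hE
  exact this ▸ hc

theorem centralizerIn_of_le {S V : Subgroup Ω} :
    centralizerIn (normalizerIn S V) V = centralizerIn S V :=
  le_antisymm (inf_le_inf_right _ (normalizerIn_le S V)) fun _ hx =>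
    ⟨⟨hx.1, CfsgLib.FusionBasics.centralizer_le_normalizer V hx.2⟩, hx.2⟩

theorem centralizerIn_centralizerIn {S Y V : Subgroup Ω} (h : Y ≤ V) :
    centralizerIn (centralizerIn S Y) V = centralizerIn S V :=
  le_antisymm (inf_le_inf_right _ (centralizerIn_le S Y)) fun _ hx =>
    ⟨⟨hx.1, fun y hy => hx.2 y (h hy)⟩, hx.2⟩

/-- The centralizer in a normalizer system. -/
theorem centralizerHom_normalizer {S V : Subgroup Ω} {F : FusionSystem S}
    {N : FusionSystem (normalizerIn S V)} (hN : F.IsNormalizerSystem V N) (hV : V ≤ S)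
    (P : Subgroup Ω) : N.centralizerHom V P = F.centralizerHom V P := by
  ext φ
  constructor
  · rintro ⟨h1, h2, h3, ψ, hψ, h4, h5⟩
    rw [hN] at h1 hψ
    rw [centralizerIn_of_le] at h2
    refine ⟨h1.1, h2, fun x => ?_, ψ, hψ.1, h4, h5⟩
    have := h3 x
    rwa [centralizerIn_of_le] at this
  · rintro ⟨h1, h2, h3, ψ, hψ, h4, h5⟩
    have hPN : P ≤ normalizerIn S V := fun x hx => (centralizerIn_of_le.ge (h2 hx)).1
    have hψV : (V.subgroupOf (P ⊔ V)).map ψ = V := by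
      ext z
      constructor
      · rintro ⟨w, hw, rfl⟩
        have := h5 ⟨w, hw⟩
        exact ((congrArg ψ (Subtype.ext rfl)).trans this).symm ▸ hw
      · exact fun hz => ⟨⟨z, Subgroup.mem_sup_right hz⟩, hz, h5 ⟨z, hz⟩⟩
    have hle : P ⊔ V ≤ normalizerIn S V := sup_le hPN (le_inf hV Subgroup.le_normalizer)
    refine ⟨?_, h2.trans centralizerIn_of_le.ge, fun x => centralizerIn_of_le.ge (h3 x), ψ, ?_,
      h4, h5⟩
    · rw [hN]
      exact ⟨h1, hPN, fun x => (centralizerIn_of_le.ge (h3 x)).1, ψ, hψ, h4, hψV⟩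
    · rw [hN]
      refine ⟨hψ, hle, fun z => apply_mem_normalizerIn hψ le_sup_right hψV z (hle z.2).2,
        ψ.comp (Subgroup.inclusion (sup_le le_rfl le_sup_right)), restrict_mem hψ _,
        fun z => congrArg ψ (Subtype.ext rfl), ?_⟩
      ext z
      constructor
      · rintro ⟨w, hw, rfl⟩
        exact hψV.le ⟨Subgroup.inclusion (sup_le le_rfl le_sup_right) w, hw, rfl⟩
      · intro hz
        obtain ⟨w, hw, rfl⟩ := hψV.ge hz
        exact ⟨Subgroup.inclusion le_sup_left w, hw, congrArg ψ (Subtype.ext rfl)⟩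

/-- The centralizer in a centralizer system. -/
theorem centralizerHom_centralizer {S Y V : Subgroup Ω} {F : FusionSystem S}
    {G : FusionSystem (centralizerIn S Y)} (hG : F.IsCentralizerSystem Y G) (hYV : Y ≤ V)
    (hV : V ≤ centralizerIn S Y) (P : Subgroup Ω) :
    G.centralizerHom V P = F.centralizerHom V P := by
  ext φ
  constructor
  · rintro ⟨h1, h2, h3, ψ, hψ, h4, h5⟩
    rw [hG] at h1 hψ
    rw [centralizerIn_centralizerIn hYV] at h2
    refine ⟨h1.1, h2, fun x => ?_, ψ, hψ.1, h4, h5⟩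
    have := h3 x
    rwa [centralizerIn_centralizerIn hYV] at this
  · rintro ⟨h1, h2, h3, ψ, hψ, h4, h5⟩
    have hPY : P ≤ centralizerIn S Y := fun x hx =>
      ((centralizerIn_centralizerIn hYV).ge (h2 hx)).1
    have hle : P ⊔ V ≤ centralizerIn S Y := sup_le hPY hV
    have hψY : ∀ y : Y, ∀ h : (y : Ω) ∈ P ⊔ V, ψ ⟨y, h⟩ = y := fun y _ =>
      h5 ⟨y, hYV y.2⟩
    refine ⟨?_, h2.trans (centralizerIn_centralizerIn hYV).ge,
      fun x => (centralizerIn_centralizerIn hYV).ge (h3 x), ψ, ?_, h4, h5⟩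
    · rw [hG]
      exact ⟨h1, hPY, fun x => ((centralizerIn_centralizerIn hYV).ge (h3 x)).1,
        ψ.comp (Subgroup.inclusion (sup_le_sup_left hYV P)), restrict_mem hψ _,
        fun x => (congrArg ψ (Subtype.ext rfl)).trans (h4 x), fun y => hψY y _⟩
    · rw [hG]
      refine ⟨hψ, hle, fun z => ⟨apply_mem hψ z, fun y hy => ?_⟩,
        ψ.comp (Subgroup.inclusion (sup_le le_rfl (hYV.trans le_sup_right))), restrict_mem hψ _,
        fun z => congrArg ψ (Subtype.ext rfl), fun y => hψY y _⟩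
      have hy' : y ∈ P ⊔ V := Subgroup.mem_sup_right (hYV hy)
      calc y * ψ z = ψ ⟨y, hy'⟩ * ψ z := congrArg (· * ψ z) (hψY ⟨y, hy⟩ hy').symm
        _ = ψ z * ψ ⟨y, hy'⟩ := by
          rw [← map_mul, ← map_mul]
          exact congrArg ψ (Subtype.ext ((hle z.2).2 y hy))
        _ = ψ z * y := congrArg (ψ z * ·) (hψY ⟨y, hy⟩ hy')

/-- An image of a fully normalized subgroup under a map of its normalizer gives an isomorphism of
the normalizer systems. -/
theorem normalizer_iso {S U V : Subgroup Ω} [Finite S] {F : FusionSystem S}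
    {ψ : normalizerIn S U →* Ω} (hψ : ψ ∈ F.Hom (normalizerIn S U)) (hUS : U ≤ S)
    (hr : ψ.range = normalizerIn S V) (hUV : (U.subgroupOf (normalizerIn S U)).map ψ = V)
    {N : FusionSystem (normalizerIn S U)} (hN : F.IsNormalizerSystem U N)
    {N' : FusionSystem (normalizerIn S V)} (hN' : F.IsNormalizerSystem V N') :
    SystemIso N N' ψ := by
  have hUT : U ≤ normalizerIn S U := le_inf hUS Subgroup.le_normalizer
  have hVV : img ψ U = V := hUV
  have himgT : ∀ Q, img ψ Q ≤ normalizerIn S V := fun Q => (img_le_range ψ Q).trans hr.le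
  obtain ⟨θ, hθ, -, hθx, hxθ⟩ := exists_inverse hψ hr
  have hfwd : ∀ {Q : Subgroup Ω} (hQ : Q ≤ normalizerIn S U),
      ψ.comp (Subgroup.inclusion hQ) ∈ F.Hom Q ∧
        (ψ.comp (Subgroup.inclusion hQ)).range = img ψ Q := fun hQ =>
    ⟨restrict_mem hψ hQ, range_comp_inclusion ψ hQ⟩
  refine ⟨F.injective_of_mem hψ, hr, fun {P} φ hφ => ?_, fun {P} hP φ' hφ' => ?_⟩
  · have hφN := (N.le_of_mem hφ)
    have hφ1 := hφ
    rw [hN P] at hφ1
    obtain ⟨hφF, hPT, hφT, χ, hχ, hχx, hχU⟩ := hφ1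
    have hle : P ⊔ U ≤ normalizerIn S U := sup_le hPT hUT
    have hχT : ∀ z, χ z ∈ normalizerIn S U := fun z =>
      apply_mem_normalizerIn hχ le_sup_right hχU z (hle z.2).2
    obtain ⟨e, he, her, hex, -⟩ := exists_inverse (hfwd hle).1 (hfwd hle).2
    have hem : ∀ w, e w ∈ P ⊔ U := fun w => her.le ⟨w, rfl⟩
    set m := (ψ.comp (χ.codRestrict _ hχT)).comp (e.codRestrict _ hem)
    have hm : m ∈ F.Hom (img ψ (P ⊔ U)) :=
      F.comp_mem he (F.comp_mem hχ hψ hχT) hem
    have hmx : ∀ (z : normalizerIn S U) (hz : (z : Ω) ∈ P ⊔ U) (h : ψ z ∈ img ψ (P ⊔ U)),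
        m ⟨ψ z, h⟩ = ψ ⟨χ ⟨z, hz⟩, hχT _⟩ := fun z hz h => by
      refine congrArg ψ (Subtype.ext (congrArg χ (Subtype.ext ?_)))
      exact hex ⟨z, hz⟩ h
    have hVX : V ≤ img ψ (P ⊔ U) := hVV ▸ img_mono ψ le_sup_right
    have hmV : (V.subgroupOf (img ψ (P ⊔ U))).map m = V := by
      ext y
      constructor
      · rintro ⟨⟨_, z, hz, rfl⟩, hw, rfl⟩
        refine Eq.subst (motive := fun v => v ∈ V) (hmx z hz _).symm ?_
        refine hVV.le ⟨_, hχU.le ⟨⟨z, hz⟩, ?_, rfl⟩, rfl⟩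
        exact (mem_img_iff (F.injective_of_mem hψ) z).mp (hVV.ge hw)
      · intro hy
        obtain ⟨u, hu, rfl⟩ := hVV.ge hy
        obtain ⟨w, hw, hwu⟩ := hχU.ge hu
        refine ⟨⟨ψ ⟨w, hle w.2⟩, ⟨_, w.2, rfl⟩⟩, hVV.le ⟨⟨w, hle w.2⟩, hw, rfl⟩, ?_⟩
        exact (hmx ⟨w, hle w.2⟩ w.2 _).trans (congrArg ψ (Subtype.ext hwu))
    refine ⟨m.comp (Subgroup.inclusion (img_mono ψ le_sup_left)), ?_, fun x => ?_⟩
    · rw [hN']
      exact mem_normalizer_of_map hm hVX hmV _ (himgT P)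
    · refine (hmx ⟨x, hPT x.2⟩ (Subgroup.mem_sup_left x.2) _).trans ?_
      exact congrArg ψ (Subtype.ext (hχx x))
  · rw [hN'] at hφ'
    obtain ⟨-, -, hφT, χ, hχ, hχx, hχV⟩ := hφ'
    have hle : P ⊔ U ≤ normalizerIn S U := sup_le hP hUT
    have himg : ∀ z : ↥(P ⊔ U), ψ (Subgroup.inclusion hle z) ∈ img ψ P ⊔ V := fun z => by
      rw [← hVV, ← img_sup ψ hP hUT]
      exact ⟨Subgroup.inclusion hle z, z.2, rfl⟩
    have hle' : img ψ P ⊔ V ≤ normalizerIn S V :=
      sup_le (himgT P) (hVV ▸ himgT U)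
    have hχT : ∀ z, χ z ∈ normalizerIn S V := fun z =>
      apply_mem_normalizerIn hχ le_sup_right hχV z (hle' z.2).2
    set m := (θ.comp (χ.codRestrict _ hχT)).comp
      ((ψ.comp (Subgroup.inclusion hle)).codRestrict _ himg)
    have hm : m ∈ F.Hom (P ⊔ U) := F.comp_mem (hfwd hle).1 (F.comp_mem hχ hθ hχT) himg
    have hθV : ∀ (w : normalizerIn S U) (h : ψ w ∈ normalizerIn S V), θ ⟨ψ w, h⟩ = w := hθx
    have hmU : (U.subgroupOf (P ⊔ U)).map m = U := by
      ext y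
      constructor
      · rintro ⟨w, hw, rfl⟩
        have h1 : χ ⟨_, himg w⟩ ∈ V :=
          hχV.le ⟨⟨_, himg w⟩, hVV.le ⟨Subgroup.inclusion hle w, hw, rfl⟩, rfl⟩
        obtain ⟨u, hu, huw⟩ := hVV.ge h1
        show θ ⟨χ ⟨_, himg w⟩, hχT _⟩ ∈ U
        rw [show (⟨χ ⟨_, himg w⟩, hχT _⟩ : normalizerIn S V) =
          ⟨ψ u, hr.le ⟨u, rfl⟩⟩ from Subtype.ext huw.symm, hθV]
        exact hu
      · intro hy
        obtain ⟨w, hw, hwy⟩ := hχV.ge (hVV.le ⟨⟨y, hUT hy⟩, hy, rfl⟩)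
        obtain ⟨u, hu, huw⟩ := hVV.ge hw
        refine ⟨⟨u, Subgroup.mem_sup_right hu⟩, hu, ?_⟩
        show θ ⟨χ ⟨_, himg _⟩, hχT _⟩ = y
        rw [show (⟨χ ⟨_, himg ⟨u, Subgroup.mem_sup_right hu⟩⟩, hχT _⟩ : normalizerIn S V) =
          ⟨ψ ⟨y, hUT hy⟩, hr.le ⟨_, rfl⟩⟩ from Subtype.ext
            ((congrArg χ (Subtype.ext huw)).trans hwy), hθV]
    refine ⟨m.comp (Subgroup.inclusion le_sup_left), ?_, fun x h => ?_⟩
    · rw [hN]
      exact mem_normalizer_of_map hm le_sup_right hmU _ hP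
    · have h1 : φ' (imgEquiv ψ (F.injective_of_mem hψ) hP x) =
          χ ⟨_, himg (Subgroup.inclusion le_sup_left x)⟩ :=
        (hχx _).symm.trans (congrArg χ (Subtype.ext rfl))
      exact h1.trans (hxθ ⟨_, hχT _⟩ h).symm

/-- A system not of component type is of characteristic `p`-type. -/
theorem characteristic_of_not_component {S : Subgroup Ω} [Finite S] (hS : IsPGroup p S)
    {F : FusionSystem S} (hF : F.IsSaturated p) (hno : ¬ F.IsOfComponentType p) :
    F.IsOfCharacteristicPType p := by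
  intro U hU hUn
  have hTS := normalizerIn_le S U
  haveI := finite_of_le hTS
  have hTp := isPGroup_of_le hS hTS
  have hUT : U ≤ normalizerIn S U := le_inf hUn.1 Subgroup.le_normalizer
  set T := normalizerIn S U with hT
  intro N hN
  haveI : Group.IsNilpotent T := hTp.isNilpotent
  haveI : (U.subgroupOf T).Normal := ⟨fun u hu g =>
    (Subgroup.mem_normalizer_iff.mp g.2.2 _).mp hu⟩
  have hne : U.subgroupOf T ≠ ⊥ := fun h => hU ((Subgroup.eq_bot_iff_forall _).mpr fun x hx =>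
    congrArg Subtype.val (Subgroup.mem_bot.mp (h.le (show (⟨x, hUT hx⟩ : T) ∈ U.subgroupOf T from hx))))
  set A := U.subgroupOf T ⊓ Subgroup.center T with hA
  have hAne : A ≠ ⊥ := CfsgLib.PSolvable.inf_center_ne_bot hne
  have hAp : IsPGroup p A := hTp.to_subgroup A
  haveI : Nontrivial A := (Subgroup.nontrivial_iff_ne_bot A).mpr hAne
  obtain ⟨k, hk, hAc⟩ := hAp.exists_card_eq.imp fun n hn => And.intro
    (show n ≠ 0 from fun h0 => by
      rw [h0, pow_zero] at hn
      exact absurd hn (Finite.one_lt_card (α := A)).ne') hn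
  obtain ⟨a, ha⟩ := exists_prime_orderOf_dvd_card' p
    (show p ∣ Nat.card A from hAc ▸ dvd_pow_self p hk)
  set z : Ω := ((a : T) : Ω) with hz
  set X := Subgroup.zpowers z with hX
  have hzo : orderOf z = p := by rw [hz, Subgroup.orderOf_coe, Subgroup.orderOf_coe, ha]
  have hzU : z ∈ U := a.2.1
  have hXU : X ≤ U := (Subgroup.zpowers_le).mpr hzU
  have hTX : T ≤ centralizerIn S X := fun t ht => ⟨hTS ht, fun x hx => by
    obtain ⟨i, rfl⟩ := Subgroup.mem_zpowers_iff.mp hx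
    have h := Subgroup.mem_center_iff.mp a.2.2 ⟨t, ht⟩
    exact ((Commute.zpow_left (show Commute z t from (congrArg Subtype.val h).symm) i) :)⟩
  have hXS : X ≤ S := hXU.trans hUn.1
  obtain ⟨Y, hXY, hYn⟩ := exists_isFullyNormalized F hXS
  obtain ⟨ψ₀, hψ₀, -, hψ₀X⟩ := exists_hom_normalizerIn_of_fullyNormalized hS hF hYn hXY
  have hTN : T ≤ normalizerIn S X := fun t ht =>
    ⟨hTS ht, CfsgLib.FusionBasics.centralizer_le_normalizer X (hTX ht).2⟩
  set ψ := ψ₀.comp (Subgroup.inclusion hTN) with hψdef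
  have hψ : ψ ∈ F.Hom T := restrict_mem hψ₀ hTN
  set V := (U.subgroupOf T).map ψ with hV
  have hXT : X ≤ T := hXU.trans hUT
  have hYψ : ∀ (x : Ω) (hx : x ∈ X), ψ ⟨x, hXT hx⟩ ∈ Y := fun x hx =>
    hψ₀X.le ⟨⟨x, hTN (hXT hx)⟩, hx, rfl⟩
  have hYV : Y ≤ V := fun y hy => by
    obtain ⟨w, hw, rfl⟩ := hψ₀X.ge hy
    exact ⟨⟨w, hXT hw⟩, hXU hw, congrArg ψ₀ (Subtype.ext rfl)⟩
  have hUV : F.IsConj U V := ⟨_, restrict_mem hψ hUT, range_comp_inclusion ψ hUT⟩
  have hVS : V ≤ S := by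
    rintro _ ⟨u, -, rfl⟩
    exact apply_mem hψ u
  haveI := finite_of_le (normalizerIn_le S V)
  have hψN : ∀ t, ψ t ∈ normalizerIn S V := fun t =>
    apply_mem_normalizerIn hψ hUT rfl t t.2.2
  have hr : ψ.range = normalizerIn S V := by
    refine Subgroup.eq_of_le_of_card_ge (by rintro _ ⟨t, rfl⟩; exact hψN t) ?_
    rw [card_range_eq (F.injective_of_mem hψ)]
    exact hUn.2 V hUV
  have hTY : ∀ t, ψ t ∈ centralizerIn S Y := fun t =>
    apply_mem_centralizerIn hψ₀ (hXT.trans hTN) hψ₀X _ (hTX t.2).2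
  have hVc : V ≤ centralizerIn S Y := by
    rintro _ ⟨u, -, rfl⟩
    exact hTY u
  have hVn : F.IsFullyNormalized V := ⟨hVS, fun Q hQ => by
    rw [← hr, card_range_eq (F.injective_of_mem hψ)]
    exact hUn.2 Q (CfsgLib.Alperin.IsConj.trans hUV hQ)⟩
  -- the centralizer system of `Y`
  obtain ⟨G, hG⟩ := exists_centralizerSystem F hYn.1
  haveI := finite_of_le (centralizerIn_le S Y)
  have hCp := isPGroup_of_le hS (centralizerIn_le S Y)
  have hGs := Cfsg.Agent.S5099.result p hS F hF Y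
    (centralized_automized_of_fullyNormalized hS hF hYn).1 G hG
  have hcardY : Nat.card Y = p := by
    rw [IsConj.card_eq hXY, hX, Nat.card_zpowers, hzo]
  have hGc : G.IsConstrained p := CfsgLib.FusionComponents.constrained_of_no_component _ _ rfl hCp
    G hGs fun hcomp => hno ⟨Y, hcardY, hYn, G, hG, hcomp⟩
  have hNN : normalizerIn (centralizerIn S Y) V = normalizerIn S V :=
    le_antisymm (inf_le_inf_right _ (centralizerIn_le S Y)) fun x hx => ⟨by
      obtain ⟨t, rfl⟩ := hr.ge hx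
      exact hTY t, hx.2⟩
  have hVG : G.IsFullyNormalized V := ⟨hVc, fun Q hQ => by
    obtain ⟨φ, hφ, rfl⟩ := hQ
    rw [hNN]
    refine le_trans ?_ (hVn.2 _ ⟨φ, by rw [hG] at hφ; exact hφ.1, rfl⟩)
    haveI := finite_of_le (normalizerIn_le S φ.range)
    exact Nat.card_le_card_of_injective _ (Subgroup.inclusion_injective
      (inf_le_inf_right _ (centralizerIn_le S Y)))⟩
  obtain ⟨G₁, hG₁⟩ := exists_normalizerSystem G hVc
  have hle₁ := normalizerIn_le (centralizerIn S Y) V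
  haveI := finite_of_le hle₁
  have hG₁c := normalizer_constrained hCp hGc hVG hG₁
  have hG₁p := isPGroup_of_le hCp hle₁
  have hV₁ : V ≤ normalizerIn (centralizerIn S Y) V := le_inf hVc Subgroup.le_normalizer
  have hV₁n : G₁.IsNormal V := by
    refine ⟨hV₁, fun P φ hφ => ?_⟩
    rw [hG₁ P] at hφ
    obtain ⟨-, hPT, -, χ, hχ, hχx, hχV⟩ := hφ
    refine ⟨χ, ?_, hχx, hχV⟩
    rw [hG₁]
    exact mem_normalizer_of_map hχ le_sup_right hχV le_rfl (sup_le hPT hV₁)
  obtain ⟨C₁, hC₁⟩ := exists_centralizerSystem G₁ hV₁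
  have hC₁n := CoreCentralizer.centralizer_isNormalIn hG₁p hG₁c.1 hV₁n hC₁
  haveI := finite_of_le (centralizerIn_le (normalizerIn (centralizerIn S Y) V) V)
  have hC₁c : C₁.IsConstrained p := CfsgLib.FusionComponents.constrained_of_no_component _ _ rfl
    (isPGroup_of_le hG₁p (centralizerIn_le _ V)) C₁ hC₁n.1.1
    (CfsgLib.FusionComponents.no_component_of_normal hC₁n fun ⟨_, _, hC⟩ =>
      CfsgLib.FusionComponents.not_component_of_constrained hG₁p hG₁c hC)
  -- the normalizer system of `V`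
  obtain ⟨N', hN'⟩ := exists_normalizerSystem F hVS
  have hN's := Cfsg.Agent.S5098.result p hS F hF V hVn N' hN'
  have hNp := isPGroup_of_le hS (normalizerIn_le S V)
  have hV' : V ≤ normalizerIn S V := le_inf hVS Subgroup.le_normalizer
  have hVn' : N'.IsNormal V := by
    refine ⟨hV', fun P φ hφ => ?_⟩
    rw [hN' P] at hφ
    obtain ⟨-, hPT, -, χ, hχ, hχx, hχV⟩ := hφ
    refine ⟨χ, ?_, hχx, hχV⟩
    rw [hN']
    exact mem_normalizer_of_map hχ le_sup_right hχV le_rfl (sup_le hPT hV')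
  obtain ⟨C', hC'⟩ := exists_centralizerSystem N' hV'
  have hC'c : C'.IsConstrained p := isConstrained_congr (by rw [hNN]) (fun P => by
    rw [hC₁ P, hC' P, centralizerHom_normalizer hG₁ hVc, centralizerHom_centralizer hG hYV hVc,
      centralizerHom_normalizer hN' hVS]) hC₁c
  obtain ⟨-, R, hR, hRc⟩ := isConstrained_of_centralizer hNp hN's hVn' hC' hC'c
  -- back to `U`
  have hiso := normalizer_iso hψ hUn.1 hr rfl hN hN'
  refine ⟨Cfsg.Agent.S5098.result p hS F hF U hUn N hN, ?_⟩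
  obtain ⟨Q, hQ, hQe⟩ := exists_img_eq ψ (hR.1.trans hr.ge)
  rw [← hQe] at hR hRc
  exact ⟨Q, hiso.isNormal_of_img hQ hR, hiso.isCentric_of_img hQ hRc⟩

end CfsgLib.FusionDichotomy
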